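import Cfsg.Agent.SmallGroups.SelfCentPrime.Cubic
import Cfsg.Agent.SmallGroups.SelfCentPrime.Arith
import Cfsg.Agent.SmallGroups.OrderPBlock
import Cfsg.Agent.Cores.Basic
import Cfsg.Agent.BlkChar.PModular

/-!
# Degrees in the principal block of a perfect group, when no intermediate divisor is `1` modulo `p`

Then some character of the block is small, and the Sylow subgroup is its own centralizer.
-/

set_option linter.style.haveILetI false
set_option linter.unusedSectionVars false
set_option autoImplicit false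

noncomputable section

namespace Cfsg.Agent.BrauerN

open scoped Classical
open Cfsg
open Cfsg.Agent.SmallGroups.SelfCentPrime (NF divisor_cases_nf)

universe u

variable {G : Type u} [Group G] [Fintype G] {p : ℕ} [hp : Fact p.Prime]

theorem commutator_le_ker {H : Type*} [Group H] (f : G →* H) (hH : ∀ a b : G, f a * f b = f b * f a) :
    commutator G ≤ f.ker := by
  rw [commutator_def, Subgroup.commutator_le]
  intro a _ b _
  rw [MonoidHom.mem_ker, map_commutatorElement, commutatorElement_eq_one_iff_mul_comm]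
  exact hH a b

/-- In a perfect group `P` is not centralized by its normalizer. -/
theorem not_normalizer_le (hperf : commutator G = ⊤) (P : Sylow p G) (hP : Nat.card P = p) :
    ¬ Subgroup.normalizer ((P : Subgroup G) : Set G) ≤ Subgroup.centralizer ((P : Subgroup G) : Set G) := by
  intro hle
  haveI : IsMulCommutative ↥(P : Subgroup G) :=
    SmallGroups.isMulCommutative_of_prime_card (by rw [show Nat.card ↥(P : Subgroup G) = p from hP]; exact hp.out)
  have hK : (MonoidHom.transferSylow P hle).ker = ⊤ :=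
    top_le_iff.1 (hperf ▸ commutator_le_ker _ fun a b => IsMulCommutative.is_comm.comm _ _)
  have h := (MonoidHom.ker_transferSylow_isComplement' P hle).card_mul_card
  rw [hK, Subgroup.card_top, show Nat.card ↥(P : Subgroup G) = p from hP] at h
  have := Nat.card_pos (α := G)
  have := hp.out.two_le
  nlinarith

/-- In a perfect group a nontrivial irreducible character is not linear. -/
theorem one_lt_degree (hperf : commutator G = ⊤) {χ : IrrCharacter G}
    (hne : χ ≠ Char.trivialIrr G) {d : ℕ} (hd : (χ : G → ℂ) 1 = d) : 1 < d := by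
  obtain ⟨n, hn0, hn⟩ := Char.irr_one_pos χ.2
  have hnd : n = d := by exact_mod_cast hn.symm.trans hd
  by_contra hle
  obtain ⟨f, hf⟩ := Char.exists_monoidHom_of_degree_one (Char.isCharacter_of_irr χ.2)
    (by rw [hd, show d = 1 by omega, Nat.cast_one])
  have hker : f.ker = ⊤ := top_le_iff.1 (hperf ▸ commutator_le_ker f fun a b => mul_comm _ _)
  refine hne (Subtype.ext (funext fun g => ?_))
  have : f g = 1 := MonoidHom.mem_ker.1 (hker ▸ Subgroup.mem_top g)
  rw [hf g, this]; rfl

/-- Under the divisor condition, some principal block character of degree below `p` is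
non-trivial on `P`. -/
theorem exists_small (hperf : commutator G = ⊤) (P : Sylow p G) (hP : Nat.card P = p) {n : ℕ}
    (hn : Nat.card (Sylow p G) = 1 + n * p) (hnf : NF p n) :
    ∃ M : Ideal AlgInt, IsPModular p M ∧ ∃ χ ∈ principalBlock M G, ∃ f : ℕ,
      (χ : G → ℂ) 1 = f ∧ f < p ∧ ∃ u ∈ (P : Subgroup G), (χ : G → ℂ) u ≠ (χ : G → ℂ) 1 := by
  obtain ⟨M, hM⟩ := BlkChar.exists_isPModular p hp.out
  refine ⟨M, hM, ?_⟩
  set C := Subgroup.centralizer ((P : Subgroup G) : Set G) with hC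
  set N := Subgroup.normalizer ((P : Subgroup G) : Set G) with hN
  obtain ⟨e, he⟩ : ∃ e, C.relIndex N = e := ⟨_, rfl⟩
  obtain ⟨X, Y, sgn, ε, hdisj, hB, hXc, hYc, hTX, hTs, hε, hXd, hYd, hYsum, hrel⟩ :=
    SmallGroups.OrderP.exists_block_data hM P hP e he
  have hed : e ∣ p - 1 := by
    have := SmallGroups.relIndex_centralizer_dvd (P : Subgroup G)
    rwa [he, (isCyclic_of_prime_card (α := ↥(P : Subgroup G)) hP).card_mulAut,
      show Nat.card ↥(P : Subgroup G) = p from hP, Nat.totient_prime hp.out] at this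
  have he2 : 2 ≤ e := by
    have h0 : e ≠ 0 := fun h => by
      rw [h] at hed
      have := hp.out.two_le
      have := Nat.eq_zero_of_zero_dvd hed
      omega
    have h1 : e ≠ 1 := fun h => not_normalizer_le hperf P hP (Subgroup.relIndex_eq_one.1 (he.trans h))
    omega
  have hp3 : 3 ≤ p := by
    have := hp.out.two_le
    have := Nat.le_of_dvd (by omega) hed
    omega
  obtain ⟨t, ht⟩ : ∃ t, t * e = p - 1 := ⟨(p - 1) / e, Nat.div_mul_cancel hed⟩
  have ht0 : 1 ≤ t := Nat.pos_of_ne_zero fun h => by rw [h, zero_mul] at ht; omega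
  have hYt : Y.card = t := by rw [hYc, ← ht, Nat.mul_div_cancel _ (by omega)]
  set A := 1 + n * p with hA
  have hA1 : 1 < A := by
    rcases Nat.eq_zero_or_pos n with h | h
    · exfalso
      subst h
      have hnor : N = ⊤ := by
        rw [← Subgroup.index_eq_one, hN]
        exact (Sylow.card_eq_index_normalizer P).symm.trans (hn.trans (by ring))
      let ι := (P : Subgroup G).normalizerMonoidHom
      haveI := isCyclic_of_prime_card (α := ↥(P : Subgroup G)) hP
      refine not_normalizer_le hperf P hP fun g hg => ?_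
      let f : G →* MulAut ↥(P : Subgroup G) := ι.comp
        ((MulEquiv.subgroupCongr hnor).symm.toMonoidHom.comp (Subgroup.topEquiv (G := G)).symm.toMonoidHom)
      have hker : f.ker = ⊤ := top_le_iff.1 (hperf ▸ commutator_le_ker f fun a b =>
        (IsCyclic.mulAutMulEquiv ↥(P : Subgroup G)).injective (by rw [map_mul, map_mul]; exact mul_comm _ _))
      have h1 : f g = 1 := MonoidHom.mem_ker.1 (by rw [hker]; trivial)
      have h2 : (⟨g, hg⟩ : N) ∈ ι.ker := h1
      rwa [Subgroup.normalizerMonoidHom_ker, Subgroup.mem_subgroupOf] at h2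
    · have := Nat.le_mul_of_pos_left p h; omega
  -- degrees
  choose dg hdg0 hdg using fun χ : IrrCharacter G => Char.irr_one_pos χ.2
  have hcd : ∀ χ : IrrCharacter G, charDegree (χ : G → ℂ) = dg χ :=
    fun χ => Char.charDegree_of_eq (hdg χ)
  obtain ⟨u₀, hu₀⟩ := exists_prime_orderOf_dvd_card' (G := ↥(P : Subgroup G)) p (dvd_of_eq hP.symm)
  have hu1 : (u₀ : G) ≠ 1 := fun h => by
    rw [show u₀ = 1 from Subtype.ext h, orderOf_one] at hu₀; exact hp.out.ne_one hu₀.symm
  have hidx : ∀ v ∈ (P : Subgroup G), v ≠ 1 → (Subgroup.centralizer ({v} : Set G)).index = e * A := by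
    intro v hv hv1
    rw [Brauer.OrderP.centralizer_eq P hP hv hv1, ← hC,
      ← Subgroup.relIndex_mul_index (Subgroup.centralizer_le_normalizer _ : C ≤ N), he]
    show e * N.index = e * A
    rw [← hn, Sylow.card_eq_index_normalizer P]; rfl
  have hint : ∀ (χ : IrrCharacter G) (v : G), v ∈ (P : Subgroup G) → v ≠ 1 →
      IsIntegral ℤ (((e * A : ℕ) : ℂ) * (χ : G → ℂ) v / (dg χ : ℂ)) := fun χ v hv hv1 => by
    have h := Char.irr_classSize_mul_div_isIntegral χ.2 v
    rwa [hidx v hv hv1, hdg χ] at h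
  have hdvdX : ∀ χ ∈ X, dg χ ∣ (p - 1) * A := by
    intro χ hχ
    obtain ⟨hs, -, hv⟩ := hXd χ hχ
    refine (Char.dvd_of_isIntegral_div (hdg0 χ).ne' ?_).trans (Nat.mul_dvd_mul_right hed A)
    have h := hint χ u₀ u₀.2 hu1
    rw [hv u₀ u₀.2 hu1] at h
    rcases hs with h' | h' <;> rw [h'] at h <;> push_cast at h ⊢
    · rwa [mul_one] at h
    · rw [mul_neg, mul_one, neg_div] at h
      exact IsIntegral.neg_iff.1 h
  obtain ⟨θ₀, hθ₀⟩ : Y.Nonempty := by rw [← Finset.card_pos, hYt]; omega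
  have hone : ¬ p ∣ orderOf (1 : G) := by rw [orderOf_one]; exact hp.out.not_dvd_one
  have hεC : (ε : ℂ) ≠ 0 := by rcases hε with rfl | rfl <;> norm_num
  set y := dg θ₀ with hy
  have hYdeg : ∀ θ ∈ Y, (θ : G → ℂ) 1 = (y : ℂ) := by
    intro θ hθ
    have h := (hrel θ hθ 1 hone).trans (hrel θ₀ hθ₀ 1 hone).symm
    rw [hdg θ₀] at h
    exact mul_left_cancel₀ hεC h
  have hdvdY : t * y ∣ (p - 1) * A := by
    rw [← ht, mul_assoc]
    refine Nat.mul_dvd_mul_left t (Char.dvd_of_isIntegral_div (hdg0 θ₀).ne' ?_)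
    have h : IsIntegral ℤ (∑ θ ∈ Y, ((e * A : ℕ) : ℂ) * (θ : G → ℂ) u₀ / (y : ℂ)) :=
      IsIntegral.sum _ fun θ hθ => by
        have h := hint θ u₀ u₀.2 hu1
        rwa [← hdg θ, hYdeg θ hθ] at h
    rw [← Finset.sum_div, ← Finset.mul_sum, hYsum u₀ u₀.2 hu1] at h
    rcases hε with h' | h' <;> rw [h'] at h <;> push_cast at h ⊢
    · rw [mul_neg, mul_one, neg_div] at h; exact IsIntegral.neg_iff.1 h
    · rwa [neg_neg, mul_one] at h
  -- a negative character of degree `p - 1` is enough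
  by_cases hsmall : ∃ χ ∈ X, sgn χ = -1 ∧ dg χ = p - 1
  · obtain ⟨χ, hχ, hs, hd⟩ := hsmall
    refine ⟨χ, (hB χ).2 (.inl hχ), p - 1, by rw [hdg χ, hd], by omega, u₀, u₀.2, ?_⟩
    rw [(hXd χ hχ).2.2 u₀ u₀.2 hu1, hs, hdg χ, hd]
    intro h
    have h' : ((p - 1 : ℕ) : ℤ) = -1 := by
      apply Int.cast_injective (α := ℂ); push_cast; push_cast at h; exact h.symm
    omega
  push Not at hsmall
  have hXdeg : ∀ χ ∈ X.erase (Char.trivialIrr G),
      (sgn χ = 1 ∧ dg χ = A) ∨ (sgn χ = -1 ∧ dg χ = (p - 1) * A) := by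
    intro χ hχ
    obtain ⟨hne, hχX⟩ := Finset.mem_erase.1 hχ
    obtain ⟨hs, hd, -⟩ := hXd χ hχX
    rw [hcd] at hd
    have h1 := one_lt_degree hperf hne (hdg χ)
    rcases divisor_cases_nf hp.out.two_le hnf hs (hdvdX χ hχX) hd with ⟨h2, h3 | h3⟩ | ⟨h2, h3 | h3⟩
    · omega
    · exact .inl ⟨h2, h3⟩
    · exact absurd h3 (hsmall χ hχX h2)
    · exact .inr ⟨h2, h3⟩
  -- the exceptional degree
  have hθd : (p : ℤ) ∣ (y : ℤ) - ε * e := by
    have h := hYd θ₀ hθ₀
    rw [hcd] at h
    exact h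
  have hteZ : (t : ℤ) * e = (p : ℤ) - 1 := by
    have := congrArg (fun z : ℕ => (z : ℤ)) ht
    push_cast [Nat.cast_sub (show 1 ≤ p by omega)] at this
    exact this
  have htd : (p : ℤ) ∣ ((t * y : ℕ) : ℤ) - (-ε) := by
    have h : (p : ℤ) ∣ (t : ℤ) * ((y : ℤ) - ε * e) + ε * p :=
      dvd_add (hθd.mul_left _) (dvd_mul_left _ _)
    convert h using 1
    push_cast
    linear_combination (ε : ℤ) * hteZ
  have hθ1 : 1 < y := one_lt_degree hperf
    (fun h => Finset.disjoint_left.1 hdisj hTX (h ▸ hθ₀)) (hdg θ₀)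
  -- the relation at the identity
  set a := ((X.erase (Char.trivialIrr G)).filter fun χ => sgn χ = 1).card
  set b := ((X.erase (Char.trivialIrr G)).filter fun χ => ¬ sgn χ = 1).card
  have hab : a + b + 1 = e := by
    show _ + _ + 1 = _
    rw [Finset.card_filter_add_card_filter_not, Finset.card_erase_of_mem hTX, hXc]; omega
  have hdeg1 : (ε : ℤ) * y = 1 + (a : ℤ) * A - (b : ℤ) * (((p - 1) * A : ℕ) : ℤ) := by
    apply Int.cast_injective (α := ℂ)
    have h := hrel θ₀ hθ₀ 1 hone
    have hsA : ∑ χ ∈ (X.erase (Char.trivialIrr G)).filter (fun χ => sgn χ = 1),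
        (sgn χ : ℂ) * (χ : G → ℂ) 1 = ∑ χ ∈ (X.erase (Char.trivialIrr G)).filter (fun χ => sgn χ = 1),
          ((A : ℕ) : ℂ) := Finset.sum_congr rfl fun χ hχ => by
      obtain ⟨h1, h2⟩ := Finset.mem_filter.1 hχ
      rw [h2, hdg χ, ((hXdeg χ h1).resolve_right fun h => by rw [h.1] at h2; omega).2]; simp
    have hsB : ∑ χ ∈ (X.erase (Char.trivialIrr G)).filter (fun χ => ¬ sgn χ = 1),
        (sgn χ : ℂ) * (χ : G → ℂ) 1 = ∑ χ ∈ (X.erase (Char.trivialIrr G)).filter (fun χ => ¬ sgn χ = 1),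
          -(((p - 1) * A : ℕ) : ℂ) := Finset.sum_congr rfl fun χ hχ => by
      obtain ⟨h1, h2⟩ := Finset.mem_filter.1 hχ
      obtain ⟨h3, h4⟩ := (hXdeg χ h1).resolve_left fun h => h2 h.1
      rw [h3, hdg χ, h4]; push_cast; ring
    rw [hdg θ₀, ← Finset.add_sum_erase _ _ hTX, hTs,
      ← Finset.sum_filter_add_sum_filter_not (X.erase (Char.trivialIrr G)) (fun χ => sgn χ = 1),
      hsA, hsB,
      Finset.sum_const, Finset.sum_const, nsmul_eq_mul, nsmul_eq_mul,
      show ((Char.trivialIrr G : IrrCharacter G) : G → ℂ) 1 = 1 from rfl] at h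
    push_cast at h ⊢
    linear_combination h
  have hAZ : (1 : ℤ) < (A : ℤ) := by exact_mod_cast hA1
  rcases divisor_cases_nf hp.out.two_le hnf (by omega : -ε = 1 ∨ -ε = -1) hdvdY htd with
    ⟨h2, h3 | h3⟩ | ⟨h2, h3 | h3⟩
  · exfalso
    have := Nat.le_mul_of_pos_left y ht0
    omega
  · -- negative sign
    exfalso
    change t * y = A at h3
    have hyA : y ≤ A := h3 ▸ Nat.le_mul_of_pos_left y ht0
    have hyA' : (y : ℤ) ≤ A := by exact_mod_cast hyA
    rw [show ε = -1 by omega] at hdeg1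
    push_cast [Nat.cast_sub (show 1 ≤ p by omega)] at hdeg1
    rcases Nat.eq_zero_or_pos b with hb | hb
    · rw [hb] at hdeg1; push_cast at hdeg1
      have : (0 : ℤ) ≤ (a : ℤ) * A := by positivity
      omega
    · have hK : (2 : ℤ) ≤ (b : ℤ) * ((p : ℤ) - 1) - a := by
        have h5 : (p : ℤ) - 1 ≤ (b : ℤ) * ((p : ℤ) - 1) :=
          le_mul_of_one_le_left (by omega) (by exact_mod_cast hb)
        have := Nat.le_of_dvd (by omega) hed
        omega
      have h6 : (2 : ℤ) * A ≤ ((b : ℤ) * ((p : ℤ) - 1) - a) * A :=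
        mul_le_mul_of_nonneg_right hK (by omega)
      nlinarith
  · -- positive sign: the exceptional characters are small
    have hye : y = e := by
      rw [← ht] at h3
      exact Nat.eq_of_mul_eq_mul_left ht0 h3
    have hex : ∃ θ ∈ Y, (θ : G → ℂ) u₀ ≠ (θ : G → ℂ) 1 := by
      by_contra hall
      push Not at hall
      have h := hYsum u₀ u₀.2 hu1
      rw [Finset.sum_congr rfl hall, Finset.sum_congr rfl hYdeg, Finset.sum_const, hYt, nsmul_eq_mul] at h
      have h' : ((t * y : ℕ) : ℤ) = -ε := by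
        apply Int.cast_injective (α := ℂ); push_cast; linear_combination h
      have := Nat.le_mul_of_pos_left y ht0
      omega
    obtain ⟨θ, hθ, hne⟩ := hex
    refine ⟨θ, (hB θ).2 (.inr hθ), e, by rw [hYdeg θ hθ, hye], ?_, u₀, u₀.2, hne⟩
    have := Nat.le_of_dvd (by omega) hed
    omega
  · exfalso
    change t * y = (p - 1) * A at h3
    rw [← ht, mul_assoc] at h3
    have hye : y = e * A := Nat.eq_of_mul_eq_mul_left ht0 h3
    rw [show ε = 1 by omega, hye] at hdeg1
    push_cast [Nat.cast_sub (show 1 ≤ p by omega)] at hdeg1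
    have h5 : (a : ℤ) + 1 ≤ e := by exact_mod_cast (show a + 1 ≤ e by omega)
    have h6 : ((a : ℤ) + 1) * A ≤ (e : ℤ) * A := mul_le_mul_of_nonneg_right h5 (by omega)
    have h7 : (0 : ℤ) ≤ (b : ℤ) * (((p : ℤ) - 1) * A) :=
      mul_nonneg (Int.natCast_nonneg _) (mul_nonneg (by omega) (by omega))
    nlinarith

/-- The Sylow subgroup is its own centralizer. -/
theorem centralizer_eq (hperf : commutator G = ⊤) (hcore : pPrimeCore p G = ⊥) (P : Sylow p G)
    (hP : Nat.card P = p) {n : ℕ} (hn : Nat.card (Sylow p G) = 1 + n * p) (hnf : NF p n) :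
    Subgroup.centralizer ((P : Subgroup G) : Set G) = (P : Subgroup G) := by
  obtain ⟨M, hM, χ, hB, f, hf, hfp, u, hu, hne⟩ := exists_small hperf P hP hn hnf
  obtain ⟨K, hK, hKmem⟩ := Char.isCharacter_exists_kernel (Char.isCharacter_of_irr χ.2)
  have hpK : ¬ p ∣ Nat.card K := by
    intro hdvd
    obtain ⟨w, hw⟩ := exists_prime_orderOf_dvd_card' (G := K) p hdvd
    rw [← Subgroup.orderOf_coe] at hw
    obtain ⟨Q, hQ⟩ := (IsPGroup.of_card (n := 1) (by rw [Nat.card_zpowers, hw, pow_one]) :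
      IsPGroup p ↥(Subgroup.zpowers (w : G))).exists_le_sylow
    obtain ⟨g, hg⟩ := MulAction.exists_smul_eq G Q P
    have hQe : Subgroup.zpowers (w : G) = (Q : Subgroup G) := Subgroup.eq_of_le_of_card_ge hQ (by
      rw [Nat.card_zpowers, hw]
      exact le_of_eq ((Nat.card_congr (Q.equiv P).toEquiv).trans hP))
    refine hne ((hKmem u).1 ?_)
    rw [← hg, Sylow.coe_subgroup_smul, ← hQe, Subgroup.mem_pointwise_smul_iff_inv_smul_mem] at hu
    have h1 := hK.conj_mem _ (Subgroup.zpowers_le.2 w.2 hu) g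
    simpa [MulAut.smul_def, mul_assoc] using h1
  have hKb : K = ⊥ := le_bot_iff.1 (hcore ▸ Cores.le_pPrimeCore_of_not_dvd hK hpK)
  have hPC : (P : Subgroup G) ≤ Subgroup.centralizer ((P : Subgroup G) : Set G) := by
    haveI : IsMulCommutative ↥(P : Subgroup G) :=
      SmallGroups.isMulCommutative_of_prime_card (by rw [show Nat.card ↥(P : Subgroup G) = p from hP]; exact hp.out)
    exact (P : Subgroup G).le_centralizer
  refine (Subgroup.eq_of_le_of_card_ge hPC ?_).symm
  set C := Subgroup.centralizer ((P : Subgroup G) : Set G)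
  obtain ⟨k, hk⟩ : p ∣ Nat.card C := (dvd_of_eq hP.symm).trans (Subgroup.card_dvd_of_le hPC)
  suffices hk1 : k = 1 by rw [hk, hk1, mul_one]; exact le_of_eq hP.symm
  by_contra hk1
  obtain ⟨r, hr, hrk⟩ := Nat.exists_prime_and_dvd hk1
  haveI := Fact.mk hr
  obtain ⟨v, hv⟩ := exists_prime_orderOf_dvd_card' (G := C) r (hk ▸ dvd_mul_of_dvd_right hrk p)
  rw [← Subgroup.orderOf_coe] at hv
  have hrp : r ≠ p := by
    rintro rfl
    have h2 : r * r ∣ Nat.card G := (hk ▸ Nat.mul_dvd_mul_left r hrk).trans (Subgroup.card_subgroup_dvd_card _)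
    rw [← pow_two] at h2
    have h3 := P.pow_dvd_card_of_pow_dvd_card h2
    rw [hP] at h3
    have := Nat.le_of_dvd hr.pos h3
    have := hr.two_le
    nlinarith
  have hvp : ¬ p ∣ orderOf (v : G) := fun h => by
    rw [hv] at h; exact hrp ((Nat.prime_dvd_prime_iff_eq hp.out hr).1 h).symm
  have h1 := SmallGroups.SelfCentPrime.value_eq_degree_of_small_degree P hP hM hB hf hfp v.2 hvp
  have h2 : (v : G) ∈ K := (hKmem _).2 h1
  rw [hKb, Subgroup.mem_bot] at h2
  rw [h2, orderOf_one] at hv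
  exact hr.ne_one hv.symm

end Cfsg.Agent.BrauerN
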