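import Cfsg.Agent.BrauerN.Degrees
import Cfsg.Agent.SmallGroups.SelfCentPrime.Classify
import Cfsg.Agent.DegPM2.Product

/-!
# Perfect groups with a Sylow subgroup of prime order: the number of conjugates
-/

set_option linter.style.haveILetI false
set_option linter.unusedSectionVars false
set_option autoImplicit false

noncomputable section

namespace Cfsg.Agent.BrauerN

open scoped Classical MatrixGroups commutatorElement
open Cfsg
open Cfsg.Agent.SmallGroups.SelfCentPrime (NF Conclusion conclusion_of_simple_nf)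

/-- The exceptional shape of `n`. -/
def HasShape (p n : ℕ) : Prop :=
  ∃ h u : ℕ, 0 < h ∧ 0 < u ∧ n * (u + 1) = h * u * p + u ^ 2 + u + h

theorem nf_of_not_hasShape {p n : ℕ} (hp : 2 ≤ p) (h : ¬ HasShape p n) : NF p n := by
  intro D hD hD1
  by_contra hcon
  rw [not_or, not_le] at hcon
  obtain ⟨hne, hlt⟩ := hcon
  obtain ⟨h', rfl⟩ : ∃ h' : ℕ, D = h' * p + 1 :=
    ⟨D / p, by have := Nat.div_add_mod D p; rw [hD1] at this; rw [mul_comm]; omega⟩
  have hh : 0 < h' := Nat.pos_of_ne_zero fun h0 => by simp [h0] at hne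
  have h1 : h' * p + 1 ∣ (h' + 1) * (1 + n * p) := by
    have h2 : h' * p + 1 ∣ h' * ((p - 1) * (1 + n * p)) := hD.mul_left h'
    have h3 : h' * p + 1 ∣ (h' * p + 1) * (1 + n * p) := dvd_mul_right _ _
    have h4 : (h' * p + 1) * (1 + n * p) = h' * ((p - 1) * (1 + n * p)) + (h' + 1) * (1 + n * p) := by
      obtain ⟨q, rfl⟩ : ∃ q, p = q + 1 := ⟨p - 1, by omega⟩
      rw [Nat.add_sub_cancel]; ring
    exact (Nat.dvd_add_right h2).1 (h4 ▸ h3)
  obtain ⟨w, hw⟩ := h1
  have hwgt : h' + 1 < w := by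
    have : (h' * p + 1) * (h' + 1) < (h' * p + 1) * w := by
      rw [← hw, mul_comm]
      exact Nat.mul_lt_mul_of_pos_left hlt (by omega)
    exact Nat.lt_of_mul_lt_mul_left this
  obtain ⟨k, hk⟩ : p ∣ w - (h' + 1) := by
    refine (Nat.modEq_iff_dvd' hwgt.le).1 ?_
    have e1 : h' * p + 1 ≡ 1 [MOD p] := by
      simp [Nat.ModEq, Nat.add_mod]
    have e2 : 1 + n * p ≡ 1 [MOD p] := by simp [Nat.ModEq, Nat.add_mod]
    calc h' + 1 = (h' + 1) * 1 := (mul_one _).symm
      _ ≡ (h' + 1) * (1 + n * p) [MOD p] := e2.symm.mul_left _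
      _ = (h' * p + 1) * w := hw
      _ ≡ 1 * w [MOD p] := e1.mul_right _
      _ = w := one_mul w
  have hk' : w = p * k + (h' + 1) := by omega
  have hk0 : 0 < k := Nat.pos_of_ne_zero fun h0 => by rw [h0, mul_zero] at hk'; omega
  refine h ⟨k, h', hk0, hh, Nat.eq_of_mul_eq_mul_right (show 0 < p by omega) ?_⟩
  rw [hk'] at hw
  nlinarith [hw]

theorem hasShape_lift {p n n' k : ℕ} (hp : 0 < p) (hn : 1 + n * p = (1 + n' * p) * (1 + k * p))
    (h : HasShape p n') : HasShape p n := by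
  obtain ⟨h₀, u, hh, hu, he⟩ := h
  have hn' : n = n' + k + n' * k * p := Nat.eq_of_mul_eq_mul_right hp (by nlinarith [hn])
  refine ⟨h₀ * (1 + k * p) + k * (u + 1), u, by positivity, hu, ?_⟩
  subst hn'
  calc (n' + k + n' * k * p) * (u + 1) = n' * (u + 1) * (1 + k * p) + k * (u + 1) := by ring
    _ = _ := by rw [he]; ring

theorem charP_two {F : Type*} [Field F] [Fintype F] {m : ℕ} (h : Fintype.card F = 2 ^ m) : CharP F 2 := by
  obtain ⟨q, hq⟩ := CharP.exists F
  haveI := hq
  obtain ⟨n, hqp, hn⟩ := FiniteField.card F q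
  rw [h] at hn
  have : q = 2 := (Nat.prime_dvd_prime_iff_eq hqp Nat.prime_two).1
    (hqp.dvd_of_dvd_pow (hn ▸ dvd_pow_self q n.pos.ne'))
  exact this ▸ hq

universe u

variable {p : ℕ} [hp : Fact p.Prime]

theorem commutator_eq_top_of_surjective {G H : Type*} [Group G] [Group H] (f : G →* H)
    (hf : Function.Surjective f) (hperf : commutator G = ⊤) : commutator H = ⊤ := by
  rw [commutator_def, ← Subgroup.map_top_of_surjective f hf, ← Subgroup.map_commutator,
    ← commutator_def, hperf]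

theorem isSimpleGroup_of_self_centralizing {Q : Type u} [Group Q] [Finite Q] (hperf : commutator Q = ⊤)
    (hcore : pPrimeCore p Q = ⊥) (P : Sylow p Q) (hP : Nat.card P = p)
    (hC : Subgroup.centralizer ((P : Subgroup Q) : Set Q) = (P : Subgroup Q)) : IsSimpleGroup Q := by
  haveI : Nontrivial Q := Finite.one_lt_card_iff_nontrivial.1
    (lt_of_lt_of_le hp.out.one_lt (hP ▸ Nat.le_of_dvd Nat.card_pos (Subgroup.card_subgroup_dvd_card _)))
  refine ⟨fun K hK => ?_⟩
  by_cases hb : K = ⊥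
  · exact .inl hb
  right
  have hpK : p ∣ Nat.card K := by
    by_contra hd
    exact hb (le_bot_iff.1 (hcore ▸ Cores.le_pPrimeCore_of_not_dvd hK hd))
  haveI := hK
  have hpQ : ¬ p ∣ K.index := fun h => by
    have h1 : p * p ∣ Nat.card Q := K.card_mul_index ▸ Nat.mul_dvd_mul hpK h
    rw [← pow_two] at h1
    have h2 := P.pow_dvd_card_of_pow_dvd_card h1
    rw [hP] at h2
    have := Nat.le_of_dvd hp.out.pos h2
    have := hp.out.two_le
    nlinarith
  have hPK : (P : Subgroup Q) ≤ K := fun x hx => by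
    refine (QuotientGroup.eq_one_iff x).1 (orderOf_eq_one_iff.1 ?_)
    refine Nat.eq_one_of_dvd_coprimes (hp.out.coprime_iff_not_dvd.2 hpQ) ?_ ?_
    · refine (orderOf_map_dvd (QuotientGroup.mk' K) x).trans ?_
      have := orderOf_dvd_natCard (⟨x, hx⟩ : (P : Subgroup Q))
      rwa [show Nat.card ↥(P : Subgroup Q) = p from hP, ← Subgroup.orderOf_coe] at this
    · rw [Subgroup.index_eq_card]; exact orderOf_dvd_natCard _
  have htop := Sylow.normalizer_sup_eq_top' P hPK
  haveI : IsCyclic ↥(P : Subgroup Q) := isCyclic_of_prime_card hP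
  refine top_le_iff.1 (hperf ▸ ?_)
  rw [commutator_def, Subgroup.commutator_le]
  intro a _ b _
  obtain ⟨x, hx, k, hk, rfl⟩ := Subgroup.mem_sup_of_normal_right.1 (htop ▸ Subgroup.mem_top a)
  obtain ⟨y, hy, l, hl, rfl⟩ := Subgroup.mem_sup_of_normal_right.1 (htop ▸ Subgroup.mem_top b)
  rw [← QuotientGroup.eq_one_iff]
  show QuotientGroup.mk' K ⁅x * k, y * l⁆ = 1
  have hk1 : QuotientGroup.mk' K k = 1 := (QuotientGroup.eq_one_iff k).2 hk
  have hl1 : QuotientGroup.mk' K l = 1 := (QuotientGroup.eq_one_iff l).2 hl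
  rw [map_commutatorElement, map_mul, map_mul, hk1, hl1, mul_one, mul_one, ← map_commutatorElement]
  refine (QuotientGroup.eq_one_iff _).2 (hPK (hC ▸ ?_))
  have h1 : ⁅(⟨x, hx⟩ : Subgroup.normalizer ((P : Subgroup Q) : Set Q)), ⟨y, hy⟩⁆ ∈
      (P : Subgroup Q).normalizerMonoidHom.ker := by
    rw [MonoidHom.mem_ker, map_commutatorElement, commutatorElement_eq_one_iff_mul_comm]
    exact (IsCyclic.mulAutMulEquiv ↥(P : Subgroup Q)).injective (by rw [map_mul, map_mul]; exact mul_comm _ _)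
  rw [Subgroup.normalizerMonoidHom_ker, Subgroup.mem_subgroupOf] at h1
  exact h1

theorem dichotomy {G : Type u} [Group G] [Finite G] (hperf : commutator G = ⊤) (P : Sylow p G)
    (hP : Nat.card P = p) (n : ℕ) (hn : Nat.card (Sylow p G) = 1 + n * p) :
    Conclusion (G ⧸ pPrimeCore p G) p ∨ HasShape p n := by
  refine or_iff_not_imp_right.2 fun hns => ?_
  set H := pPrimeCore p G with hH
  letI := Fintype.ofFinite (G ⧸ H)
  have hmk := QuotientGroup.mk'_surjective H
  set R := P.mapSurjective hmk with hR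
  have hHp : ¬ p ∣ Nat.card H := Cores.not_dvd_card_pPrimeCore
  have hRP : (R : Subgroup (G ⧸ H)) = (P : Subgroup G).map (QuotientGroup.mk' H) :=
    Sylow.coe_mapSurjective hmk P
  have hRc : Nat.card R = p := by
    show Nat.card ↥(R : Subgroup (G ⧸ H)) = p
    rw [hRP]
    rcases hp.out.eq_one_or_self_of_dvd _ ((Subgroup.card_map_dvd (QuotientGroup.mk' H) (H := (P : Subgroup G))).trans (dvd_of_eq hP)) with h | h
    · exfalso
      rw [Subgroup.card_eq_one, Subgroup.map_eq_bot_iff, QuotientGroup.ker_mk'] at h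
      exact hHp (hP ▸ Subgroup.card_dvd_of_le h)
    · exact h
  obtain ⟨n', hn'⟩ : ∃ n', Nat.card (Sylow p (G ⧸ H)) = 1 + n' * p := by
    have h := card_sylow_modEq_one p (G ⧸ H)
    rw [Nat.ModEq, Nat.mod_eq_of_lt hp.out.one_lt] at h
    exact ⟨Nat.card (Sylow p (G ⧸ H)) / p, by have := Nat.div_add_mod (Nat.card (Sylow p (G ⧸ H))) p; rw [h] at this; rw [mul_comm]; omega⟩
  obtain ⟨c, hc⟩ : 1 + n' * p ∣ 1 + n * p := by
    rw [← hn, ← hn', Sylow.card_eq_index_normalizer R, Sylow.card_eq_index_normalizer P]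
    refine (Subgroup.index_dvd_of_le ?_).trans (Subgroup.index_map_dvd (Subgroup.normalizer ((P : Subgroup G) : Set G)) hmk)
    show Subgroup.map (QuotientGroup.mk' H) _ ≤ Subgroup.normalizer ((R : Subgroup (G ⧸ H)) : Set (G ⧸ H))
    rw [hRP]
    exact Subgroup.le_normalizer_map _
  obtain ⟨k, rfl⟩ : ∃ k, c = 1 + k * p := by
    have h : c % p = 1 := by
      have h1 := congrArg (· % p) hc
      simp only [Nat.add_mul_mod_self_right, Nat.one_mul, Nat.mod_eq_of_lt hp.out.one_lt] at h1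
      rw [Nat.add_mul, Nat.one_mul, mul_comm n' p, mul_assoc, Nat.add_mul_mod_self_left] at h1
      exact h1.symm
    exact ⟨c / p, by have := Nat.div_add_mod c p; rw [h] at this; rw [mul_comm]; omega⟩
  have hnf : NF p n' := nf_of_not_hasShape hp.out.two_le fun h =>
    hns (hasShape_lift hp.out.pos hc h)
  have hperf' := commutator_eq_top_of_surjective _ hmk hperf
  have hcore : pPrimeCore p (G ⧸ H) = ⊥ := Cores.pPrimeCore_quotient_pPrimeCore_eq_bot
  have hC := centralizer_eq hperf' hcore R hRc hn' hnf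
  haveI := isSimpleGroup_of_self_centralizing hperf' hcore R hRc hC
  refine conclusion_of_simple_nf (fun hcomm => ?_) R hRc hC hn' hnf
  have hb : commutator (G ⧸ H) = ⊥ := by
    rw [eq_bot_iff, commutator_def, Subgroup.commutator_le]
    intro a _ b _
    rw [Subgroup.mem_bot, commutatorElement_eq_one_iff_mul_comm]
    exact hcomm.is_comm.comm a b
  exact top_ne_bot (hperf'.symm.trans hb)

end Cfsg.Agent.BrauerN
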